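import Mathlib
import Cfsg.Agent.S0031

/-!
# Finite groups with a fixed-point-free automorphism `σ`, `σ ^ 4 = 1`, are solvable

Elementary proof (no solvability assumed): the elements inverted by `τ = σ²` commute with their
`σ`-images, hence lie in the unique `σ`-invariant Sylow subgroups, and a counting argument makes the
`p`-part of the inverted set generate a normal `p`-subgroup.
-/

set_option autoImplicit false

namespace Cfsg.Agent.Lib.GH.Basic

open Subgroup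

universe u

/-- `σ` has no nontrivial fixed point, and `σ ^ 4 = 1`. -/
structure Fpf4 {W : Type*} [Group W] (σ : MulAut W) : Prop where
  four : ∀ x, σ (σ (σ (σ x))) = x
  fix : ∀ x, σ x = x → x = 1

section Basics

variable {W : Type*} [Group W] {σ : MulAut W}

lemma Fpf4.inj (hf : Fpf4 σ) : Function.Injective (fun x : W => x⁻¹ * σ x) := by
  intro x y h
  simp only at h
  have h1 : σ (y * x⁻¹) = y * x⁻¹ := by
    rw [map_mul, map_inv]
    have h2 : σ y = y * (x⁻¹ * σ x) := by rw [h]; group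
    rw [h2]; group
  have h2 := hf.fix _ h1
  exact (mul_inv_eq_one.1 h2).symm

variable [Finite W]

lemma Fpf4.surj (hf : Fpf4 σ) : Function.Surjective (fun x : W => x⁻¹ * σ x) :=
  Finite.injective_iff_surjective.1 hf.inj

/-- The norm law. -/
lemma Fpf4.norm (hf : Fpf4 σ) (x : W) : x * σ x * σ (σ x) * σ (σ (σ x)) = 1 := by
  obtain ⟨u, rfl⟩ := hf.surj x
  simp only [map_mul, map_inv, hf.four]
  group

lemma Fpf4.odd (hf : Fpf4 σ) : Odd (Nat.card W) := by
  classical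
  haveI : Fintype W := Fintype.ofFinite W
  let f : Function.End W := fun x => σ x
  have h1 : f ^ (2 ^ 2) = 1 := by
    funext x
    have : (f ^ (2 ^ 2)) x = σ (σ (σ (σ x))) := rfl
    rw [this, hf.four]; rfl
  haveI : Fact (Nat.Prime 2) := ⟨Nat.prime_two⟩
  have h2 := Equiv.Perm.card_fixedPoints_modEq (α := W) (f := f) (p := 2) (n := 2) h1
  have h3 : Fintype.card f.fixedPoints = 1 := by
    have : f.fixedPoints = {1} := by
      ext x
      simp only [Set.mem_singleton_iff]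
      constructor
      · exact fun h => hf.fix x h
      · rintro rfl; exact map_one σ
    simp only [this]
    simp
  rw [h3] at h2
  rw [Nat.card_eq_fintype_card, Nat.odd_iff]
  simpa [Nat.ModEq] using h2

/-- Square roots in a group of odd order. -/
lemma exists_sqrt (hodd : Odd (Nat.card W)) (x : W) : (x ^ ((Nat.card W + 1) / 2)) ^ 2 = x := by
  obtain ⟨k, hk⟩ := hodd
  have : (Nat.card W + 1) / 2 * 2 = Nat.card W + 1 := by omega
  rw [← pow_mul, this, pow_succ, pow_card_eq_one', one_mul]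

lemma sq_inj (hodd : Odd (Nat.card W)) {x y : W} (h : x ^ 2 = y ^ 2) : x = y := by
  have h1 : (x ^ 2) ^ ((Nat.card W + 1) / 2) = (y ^ 2) ^ ((Nat.card W + 1) / 2) := by rw [h]
  have e : ∀ z : W, (z ^ 2) ^ ((Nat.card W + 1) / 2) = z := by
    intro z
    rw [← pow_mul, mul_comm, pow_mul]
    exact exists_sqrt hodd z
  rwa [e, e] at h1

lemma sq_eq_one (hodd : Odd (Nat.card W)) {x : W} (h : x ^ 2 = 1) : x = 1 := by
  apply sq_inj hodd
  rw [h, one_pow]

/-- `σ` inverts the fixed points of `τ`. -/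
lemma Fpf4.inv_of_fix (hf : Fpf4 σ) {x : W} (hx : σ (σ x) = x) : σ x = x⁻¹ := by
  have h1 := hf.norm x
  rw [hx] at h1
  have h2 : (x * σ x) ^ 2 = 1 := by
    rw [pow_two, ← h1]
    group
  have h3 := sq_eq_one hf.odd h2
  exact eq_inv_of_mul_eq_one_right h3

/-- Elements inverted by `τ` commute with their `σ`-image. -/
lemma Fpf4.comm_of_inv (hf : Fpf4 σ) {e : W} (he : σ (σ e) = e⁻¹) : e * σ e = σ e * e := by
  have h1 := hf.norm e
  rw [he, map_inv] at h1
  have h2 : e * σ e * e⁻¹ * (σ e)⁻¹ = 1 := h1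
  have h3 : e * σ e * e⁻¹ = σ e := by
    rw [← mul_inv_eq_one]; exact h2
  rw [mul_inv_eq_iff_eq_mul] at h3
  exact h3

/-- The decomposition of a subgroup as inverted × fixed, cardinality version. -/
lemma Fpf4.card_decomp (hf : Fpf4 σ) (Y : Subgroup W) (hY : ∀ x ∈ Y, σ (σ x) ∈ Y) :
    Nat.card {x : W // x ∈ Y ∧ σ (σ x) = x⁻¹} * Nat.card {x : W // x ∈ Y ∧ σ (σ x) = x} =
      Nat.card Y := by
  rw [← Nat.card_prod]
  have hodd := hf.odd
  let f : {x : W // x ∈ Y ∧ σ (σ x) = x⁻¹} × {x : W // x ∈ Y ∧ σ (σ x) = x} → Y :=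
    fun a => ⟨a.1.1 * a.2.1, Y.mul_mem a.1.2.1 a.2.2.1⟩
  apply Nat.card_congr (Equiv.ofBijective f ⟨?_, ?_⟩)
  · rintro ⟨⟨s, hs, hs'⟩, ⟨c, hc, hc'⟩⟩ ⟨⟨s₁, hs₁, hs₁'⟩, ⟨c₁, hc₁, hc₁'⟩⟩ h
    have h0 : s * c = s₁ * c₁ := congrArg Subtype.val h
    have h1 : s⁻¹ * c = s₁⁻¹ * c₁ := by
      have := congrArg (fun z => σ (σ z)) h0
      simpa only [map_mul, hs', hc', hs₁', hc₁'] using this
    have h2 : s ^ 2 = s₁ ^ 2 := by
      have e1 : c = s⁻¹ * (s₁ * c₁) := by rw [← h0]; group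
      rw [e1] at h1
      have e2 : s⁻¹ * (s⁻¹ * (s₁ * c₁)) = s₁⁻¹ * c₁ → s⁻¹ * s⁻¹ * s₁ = s₁⁻¹ := by
        intro h
        have := congrArg (fun z => z * c₁⁻¹) h
        simpa [mul_assoc] using this
      have e3 := e2 h1
      have e4 : s * s = s₁ * s₁ := by
        have e5 : s * s * (s⁻¹ * s⁻¹ * s₁) = s₁ := by group
        rw [e3] at e5
        have e6 := congrArg (fun z => z * s₁) e5
        simpa [mul_assoc] using e6
      simpa only [pow_two] using e4
    have h3 : s = s₁ := sq_inj hodd h2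
    subst h3
    have h4 : c = c₁ := mul_left_cancel h0
    subst h4
    rfl
  · rintro ⟨x, hx⟩
    set t := x * (σ (σ x))⁻¹ with ht
    have htY : t ∈ Y := Y.mul_mem hx (Y.inv_mem (hY x hx))
    set s := t ^ ((Nat.card W + 1) / 2) with hs
    have hs2 : s ^ 2 = t := exists_sqrt hodd t
    have hτt : σ (σ t) = t⁻¹ := by
      simp only [ht, map_mul, map_inv]
      have e : σ (σ (σ (σ x))) = x := hf.four x
      rw [e]; group
    have hτs : σ (σ s) = s⁻¹ := by
      simp only [hs, map_pow, hτt, inv_pow]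
    have hsY : s ∈ Y := Y.pow_mem htY _
    refine ⟨⟨⟨s, hsY, hτs⟩, ⟨s⁻¹ * x, Y.mul_mem (Y.inv_mem hsY) hx, ?_⟩⟩, ?_⟩
    · have e : σ (σ x) = t⁻¹ * x := by rw [ht]; group
      rw [map_mul, map_mul, map_inv, map_inv, hτs, e, ← hs2]
      simp only [pow_two]
      group
    · apply Subtype.ext
      show s * (s⁻¹ * x) = x
      group

end Basics

/-- Restriction of an automorphism to an invariant subgroup. -/
def resAut {W : Type*} [Group W] {σ : MulAut W} (hf : Fpf4 σ) (M : Subgroup W) (hM : ∀ x ∈ M, σ x ∈ M) :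
    MulAut M where
  toFun x := ⟨σ x, hM x x.2⟩
  invFun x := ⟨σ (σ (σ x)), hM _ (hM _ (hM _ x.2))⟩
  left_inv x := by apply Subtype.ext; exact hf.four x
  right_inv x := by apply Subtype.ext; exact hf.four x
  map_mul' x y := by apply Subtype.ext; exact map_mul σ _ _

lemma resAut_coe {W : Type*} [Group W] {σ : MulAut W} (hf : Fpf4 σ) (M : Subgroup W) (hM : ∀ x ∈ M, σ x ∈ M)
    (x : M) : ((resAut hf M hM x : M) : W) = σ x := rfl

lemma Fpf4.res {W : Type*} [Group W] {σ : MulAut W} (hf : Fpf4 σ) (M : Subgroup W) (hM : ∀ x ∈ M, σ x ∈ M) :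
    Fpf4 (resAut hf M hM) where
  four x := by apply Subtype.ext; exact hf.four x
  fix x h := by
    apply Subtype.ext
    exact hf.fix x (congrArg Subtype.val h)

/-- Membership from `x⁻¹ σ x ∈ M`. -/
lemma Fpf4.mem_of_inv_mul_mem {W : Type*} [Group W] [Finite W] {σ : MulAut W} (hf : Fpf4 σ) (M : Subgroup W)
    (hM : ∀ x ∈ M, σ x ∈ M) {x : W} (hx : x⁻¹ * σ x ∈ M) : x ∈ M := by
  obtain ⟨u, hu⟩ := (hf.res M hM).surj ⟨_, hx⟩
  have h1 : (u : W)⁻¹ * σ u = x⁻¹ * σ x := congrArg Subtype.val hu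
  have h2 := hf.inj h1
  rw [← h2]
  exact u.2

section Sylow

variable {W : Type*} [Group W] [Finite W] {σ : MulAut W}

lemma Fpf4.mem_iff (hf : Fpf4 σ) (M : Subgroup W) (hM : ∀ x ∈ M, σ x ∈ M) (x : W) : σ x ∈ M ↔ x ∈ M := by
  constructor
  · intro h
    have := hM _ (hM _ (hM _ h))
    rwa [hf.four] at this
  · exact hM x

lemma Fpf4.normalizer_inv (hf : Fpf4 σ) (T : Subgroup W) (hT : ∀ x ∈ T, σ x ∈ T) :
    ∀ x ∈ normalizer (T : Set W), σ x ∈ normalizer (T : Set W) := by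
  intro x hx
  rw [mem_normalizer_iff] at hx ⊢
  intro h
  have h1 : σ (x * σ (σ (σ h)) * x⁻¹) = σ x * h * (σ x)⁻¹ := by
    simp only [map_mul, map_inv, hf.four]
  rw [← h1, hf.mem_iff T hT, ← hx, hf.mem_iff T hT, hf.mem_iff T hT, hf.mem_iff T hT]

/-- A maximal `σ`-invariant `p`-subgroup is a Sylow subgroup. -/
lemma Fpf4.eq_of_max (hf : Fpf4 σ) (p : ℕ) [Fact p.Prime] (T : Subgroup W) (hT : ∀ x ∈ T, σ x ∈ T)
    (hTp : IsPGroup p T)
    (hmax : ∀ T' : Subgroup W, T ≤ T' → (∀ x ∈ T', σ x ∈ T') → IsPGroup p T' → T' = T) :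
    ∀ Q : Subgroup W, IsPGroup p Q → T ≤ Q → Q = T := by
  classical
  set N := normalizer (T : Set W) with hN
  have hNinv : ∀ x ∈ N, σ x ∈ N := hf.normalizer_inv T hT
  let φ := resAut hf N hNinv
  have hφ : MonoidHom.FixedPointFree (φ : N →* N) := by
    intro x hx
    exact (hf.res N hNinv).fix x hx
  obtain ⟨P₁, hP₁⟩ := Cfsg.Agent.S0031.result φ hφ p
  have hP₁inv : ∀ x ∈ (P₁ : Subgroup N), φ x ∈ (P₁ : Subgroup N) := by
    intro x hx
    rw [← hP₁]
    exact ⟨x, hx, rfl⟩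
  have hTnormal : (T.subgroupOf N).Normal :=
    (normal_subgroupOf_iff_le_normalizer (le_normalizer (H := T))).2 le_rfl
  have hTpN : IsPGroup p (T.subgroupOf N) := hTp.comap_subtype
  have hTP₁ : T.subgroupOf N ≤ (P₁ : Subgroup N) := by
    have h1 : IsPGroup p ((T.subgroupOf N) ⊔ (P₁ : Subgroup N) : Subgroup N) :=
      IsPGroup.to_sup_of_normal_left hTpN P₁.isPGroup'
    have h2 := P₁.is_maximal' h1 le_sup_right
    rw [← h2]
    exact le_sup_left
  -- the image of `P₁`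
  have hT₁ : (P₁ : Subgroup N).map N.subtype = T := by
    apply hmax
    · intro x hx
      exact ⟨⟨x, le_normalizer hx⟩, hTP₁ (by simpa [mem_subgroupOf] using hx), rfl⟩
    · rintro _ ⟨x, hx, rfl⟩
      exact ⟨φ x, hP₁inv x hx, rfl⟩
    · have := P₁.isPGroup'
      exact this.map _
  have hP₁T : (P₁ : Subgroup N) ≤ T.subgroupOf N := by
    intro x hx
    rw [mem_subgroupOf, ← hT₁]
    exact ⟨x, hx, rfl⟩
  intro Q hQ hTQ
  by_contra hne
  have hQN : IsPGroup p (Q.subgroupOf N) := hQ.comap_subtype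
  have hQNle : Q.subgroupOf N ≤ T.subgroupOf N := by
    have h1 : IsPGroup p ((T.subgroupOf N) ⊔ (Q.subgroupOf N) : Subgroup N) :=
      IsPGroup.to_sup_of_normal_left hTpN hQN
    have h3 : IsPGroup p ((P₁ : Subgroup N) ⊔ (Q.subgroupOf N) : Subgroup N) := by
      have : (P₁ : Subgroup N) = T.subgroupOf N := le_antisymm hP₁T hTP₁
      rw [this]; exact h1
    have h2 := P₁.is_maximal' h3 le_sup_left
    have h4 : Q.subgroupOf N ≤ (P₁ : Subgroup N) := by
      rw [← h2]; exact le_sup_right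
    exact h4.trans hP₁T
  -- the normalizer condition in `Q`
  haveI : Group.IsNilpotent Q := hQ.isNilpotent
  have hlt : T.subgroupOf Q < ⊤ := by
    rw [lt_top_iff_ne_top]
    intro h
    apply hne
    apply le_antisymm _ hTQ
    intro x hx
    have : (⟨x, hx⟩ : Q) ∈ T.subgroupOf Q := by rw [h]; trivial
    exact this
  have hlt2 := Group.normalizerCondition_of_isNilpotent _ hlt
  obtain ⟨y, hy1, hy2⟩ := SetLike.exists_of_lt hlt2
  apply hy2
  rw [mem_subgroupOf]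
  have hyN : (y : W) ∈ N := by
    rw [hN, mem_normalizer_iff]
    intro h
    have hy3 := (mem_normalizer_iff.1 hy1)
    constructor
    · intro hh
      have h1 := (hy3 ⟨h, hTQ hh⟩).1 (by rw [mem_subgroupOf]; exact hh)
      rw [mem_subgroupOf] at h1
      exact h1
    · intro hh
      have hhQ : h ∈ Q := by
        have h2 : h = (y : W)⁻¹ * ((y : W) * h * (y : W)⁻¹) * y := by group
        rw [h2]
        exact Q.mul_mem (Q.mul_mem (Q.inv_mem y.2) (hTQ hh)) y.2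
      have h1 := (hy3 ⟨h, hhQ⟩).2 (by rw [mem_subgroupOf]; exact hh)
      rw [mem_subgroupOf] at h1
      exact h1
  have : (⟨y, hyN⟩ : N) ∈ T.subgroupOf N := hQNle (by rw [mem_subgroupOf]; exact y.2)
  exact this

/-- Two `σ`-invariant Sylow subgroups coincide. -/
lemma Fpf4.sylow_unique (hf : Fpf4 σ) {p : ℕ} [Fact p.Prime] (S₁ S₂ : Sylow p W)
    (h₁ : ∀ x ∈ (S₁ : Subgroup W), σ x ∈ (S₁ : Subgroup W))
    (h₂ : ∀ x ∈ (S₂ : Subgroup W), σ x ∈ (S₂ : Subgroup W)) : S₁ = S₂ := by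
  classical
  obtain ⟨g, hg⟩ := MulAction.exists_smul_eq W S₁ S₂
  have hmem : ∀ y : W, y ∈ (S₁ : Subgroup W) ↔ g * y * g⁻¹ ∈ (S₂ : Subgroup W) := by
    intro y
    rw [← hg, Sylow.coe_subgroup_smul, ← smul_mem_pointwise_smul_iff (a := MulAut.conj g)]
    rfl
  have hgN : g⁻¹ * σ g ∈ normalizer ((S₁ : Subgroup W) : Set W) := by
    rw [mem_normalizer_iff]
    intro n
    have e1 : σ (g * σ (σ (σ n)) * g⁻¹) = σ g * n * (σ g)⁻¹ := by
      simp only [map_mul, map_inv, hf.four]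
    have e2 : g⁻¹ * σ g * n * (g⁻¹ * σ g)⁻¹ = g⁻¹ * (σ g * n * (σ g)⁻¹) * g := by group
    rw [hmem (g⁻¹ * σ g * n * (g⁻¹ * σ g)⁻¹), e2]
    have e3 : g * (g⁻¹ * (σ g * n * (σ g)⁻¹) * g) * g⁻¹ = σ g * n * (σ g)⁻¹ := by group
    rw [e3, ← e1, hf.mem_iff _ h₂, ← hmem, hf.mem_iff _ h₁, hf.mem_iff _ h₁, hf.mem_iff _ h₁]
  have hgN2 := hf.mem_of_inv_mul_mem _ (hf.normalizer_inv _ h₁) hgN
  rw [← hg]
  exact (Sylow.smul_eq_iff_mem_normalizer.2 hgN2).symm

/-- The `σ`-invariant Sylow subgroup contains every `σ`-invariant `p`-subgroup. -/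
theorem Fpf4.exists_R (hf : Fpf4 σ) (p : ℕ) [Fact p.Prime] :
    ∃ R : Sylow p W, (∀ x ∈ (R : Subgroup W), σ x ∈ (R : Subgroup W)) ∧
      ∀ Y : Subgroup W, (∀ x ∈ Y, σ x ∈ Y) → IsPGroup p Y → Y ≤ R := by
  classical
  have key : ∀ Y : Subgroup W, (∀ x ∈ Y, σ x ∈ Y) → IsPGroup p Y →
      ∃ R : Sylow p W, (∀ x ∈ (R : Subgroup W), σ x ∈ (R : Subgroup W)) ∧ Y ≤ R := by
    intro Y hY hYp
    let F : Subgroup W → Prop := fun T => (∀ x ∈ T, σ x ∈ T) ∧ IsPGroup p T
    obtain ⟨T, hYT, hT⟩ := Finite.exists_le_maximal (p := F) (a := Y) ⟨hY, hYp⟩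
    have hTinv := hT.prop.1
    have hTp := hT.prop.2
    have hmax : ∀ T' : Subgroup W, T ≤ T' → (∀ x ∈ T', σ x ∈ T') → IsPGroup p T' → T' = T := by
      intro T' hle h1 h2
      exact le_antisymm (hT.le_of_ge ⟨h1, h2⟩ hle) hle
    have hSyl := hf.eq_of_max p T hTinv hTp hmax
    refine ⟨⟨T, hTp, ?_⟩, hTinv, hYT⟩
    intro Q hQ hle
    exact hSyl Q hQ hle
  obtain ⟨R, hR, -⟩ := key ⊥ (by
    intro x hx
    rw [mem_bot] at hx ⊢
    rw [hx, map_one]) IsPGroup.of_bot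
  refine ⟨R, hR, ?_⟩
  intro Y hY hYp
  obtain ⟨R', hR', hle⟩ := key Y hY hYp
  rwa [hf.sylow_unique R R' hR hR']

end Sylow

section Count

variable {W : Type*} [Group W] [Finite W]

/-- The Chinese remainder idempotents. -/
lemma exists_crt {d₁ d₂ : ℕ} (h : Nat.Coprime d₁ d₂) :
    ∃ a b : ℕ, ∀ x : W, x ^ (d₁ * d₂) = 1 → (x ^ a) ^ d₁ = 1 ∧ (x ^ b) ^ d₂ = 1 ∧ x ^ a * x ^ b = x := by
  let a := (Nat.chineseRemainder h 1 0 : ℕ)
  let b := (Nat.chineseRemainder h 0 1 : ℕ)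
  have ha : a ≡ 1 [MOD d₁] ∧ a ≡ 0 [MOD d₂] := (Nat.chineseRemainder h 1 0).2
  have hb : b ≡ 0 [MOD d₁] ∧ b ≡ 1 [MOD d₂] := (Nat.chineseRemainder h 0 1).2
  refine ⟨a, b, fun x hx => ⟨?_, ?_, ?_⟩⟩
  · have h1 : d₂ ∣ a := (Nat.modEq_zero_iff_dvd).1 ha.2
    obtain ⟨k, hk⟩ := h1
    rw [hk, ← pow_mul]
    have : d₂ * k * d₁ = d₁ * d₂ * k := by ring
    rw [this, pow_mul, hx, one_pow]
  · have h1 : d₁ ∣ b := (Nat.modEq_zero_iff_dvd).1 hb.1
    obtain ⟨k, hk⟩ := h1
    rw [hk, ← pow_mul]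
    have : d₁ * k * d₂ = d₁ * d₂ * k := by ring
    rw [this, pow_mul, hx, one_pow]
  · rw [← pow_add]
    have h1 : a + b ≡ 1 [MOD d₁] := by simpa using ha.1.add hb.1
    have h2 : a + b ≡ 1 [MOD d₂] := by simpa using ha.2.add hb.2
    have h3 : a + b ≡ 1 [MOD d₁ * d₂] := (Nat.modEq_and_modEq_iff_modEq_mul h).1 ⟨h1, h2⟩
    have h4 : orderOf x ∣ d₁ * d₂ := orderOf_dvd_of_pow_eq_one hx
    have h5 := h3.of_dvd h4
    have := pow_eq_pow_iff_modEq.2 h5
    simpa using this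

/-- The map to the two parts. -/
lemma card_part_le (S : W → Prop) (hS : ∀ x, S x → ∀ n : ℕ, S (x ^ n)) {d₁ d₂ : ℕ} (h : Nat.Coprime d₁ d₂) :
    Nat.card {x : W // S x ∧ x ^ (d₁ * d₂) = 1} ≤
      Nat.card {x : W // S x ∧ x ^ d₁ = 1} * Nat.card {x : W // S x ∧ x ^ d₂ = 1} := by
  classical
  obtain ⟨a, b, hab⟩ := exists_crt (W := W) h
  rw [← Nat.card_prod]
  let f : {x : W // S x ∧ x ^ (d₁ * d₂) = 1} →
      {x : W // S x ∧ x ^ d₁ = 1} × {x : W // S x ∧ x ^ d₂ = 1} :=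
    fun x => (⟨x.1 ^ a, hS _ x.2.1 _, (hab _ x.2.2).1⟩, ⟨x.1 ^ b, hS _ x.2.1 _, (hab _ x.2.2).2.1⟩)
  apply Nat.card_le_card_of_injective f
  intro x y hxy
  have h1 : x.1 ^ a = y.1 ^ a := congrArg (fun z => z.1.1) hxy
  have h2 : x.1 ^ b = y.1 ^ b := congrArg (fun z => z.2.1) hxy
  apply Subtype.ext
  rw [← (hab _ x.2.2).2.2, ← (hab _ y.2.2).2.2, h1, h2]

lemma comm_of_card_part_eq (S : W → Prop) (hS : ∀ x, S x → ∀ n : ℕ, S (x ^ n)) {d₁ d₂ : ℕ} (h : Nat.Coprime d₁ d₂)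
    (heq : Nat.card {x : W // S x ∧ x ^ (d₁ * d₂) = 1} =
      Nat.card {x : W // S x ∧ x ^ d₁ = 1} * Nat.card {x : W // S x ∧ x ^ d₂ = 1})
    {u v : W} (hu : S u) (hu1 : u ^ d₁ = 1) (hv : S v) (hv1 : v ^ d₂ = 1) : u * v = v * u := by
  classical
  obtain ⟨a, b, hab⟩ := exists_crt (W := W) h
  rw [← Nat.card_prod] at heq
  let f : {x : W // S x ∧ x ^ (d₁ * d₂) = 1} →
      {x : W // S x ∧ x ^ d₁ = 1} × {x : W // S x ∧ x ^ d₂ = 1} :=
    fun x => (⟨x.1 ^ a, hS _ x.2.1 _, (hab _ x.2.2).1⟩, ⟨x.1 ^ b, hS _ x.2.1 _, (hab _ x.2.2).2.1⟩)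
  have hinj : Function.Injective f := by
    intro x y hxy
    have h1 : x.1 ^ a = y.1 ^ a := congrArg (fun z => z.1.1) hxy
    have h2 : x.1 ^ b = y.1 ^ b := congrArg (fun z => z.2.1) hxy
    apply Subtype.ext
    rw [← (hab _ x.2.2).2.2, ← (hab _ y.2.2).2.2, h1, h2]
  have hbij := (Nat.bijective_iff_injective_and_card f).2 ⟨hinj, heq⟩
  obtain ⟨x, hx⟩ := hbij.2 (⟨u, hu, hu1⟩, ⟨v, hv, hv1⟩)
  have h1 : x.1 ^ a = u := congrArg (fun z => z.1.1) hx
  have h2 : x.1 ^ b = v := congrArg (fun z => z.2.1) hx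
  rw [← h1, ← h2]
  exact ((Commute.refl x.1).pow_pow a b).eq

end Count

section Main

variable {W : Type*} [Group W] [Finite W] {σ : MulAut W}

lemma isPGroup_zpowers {p : ℕ} [hp : Fact p.Prime] {x : W} {k : ℕ} (h : x ^ p ^ k = 1) :
    IsPGroup p (zpowers x) := by
  obtain ⟨m, -, hm⟩ := (Nat.dvd_prime_pow hp.out).1 (orderOf_dvd_of_pow_eq_one h)
  exact IsPGroup.of_card (n := m) (by rw [Nat.card_zpowers, hm])

/-- A `p`-element inverted by `τ` lies in the invariant Sylow subgroup. -/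
lemma Fpf4.mem_R_of_inv (hf : Fpf4 σ) {p : ℕ} [Fact p.Prime] (R : Subgroup W)
    (hR : ∀ Y : Subgroup W, (∀ x ∈ Y, σ x ∈ Y) → IsPGroup p Y → Y ≤ R)
    {x : W} {k : ℕ} (hx : σ (σ x) = x⁻¹) (hk : x ^ p ^ k = 1) : x ∈ R := by
  have hc : x * σ x = σ x * x := hf.comm_of_inv hx
  have hk' : (σ x) ^ p ^ k = 1 := by rw [← map_pow, hk, map_one]
  have h1 : IsPGroup p (zpowers x ⊔ zpowers (σ x) : Subgroup W) := by
    apply IsPGroup.to_sup_of_normal_left' (isPGroup_zpowers hk) (isPGroup_zpowers hk')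
    rw [zpowers_le, mem_normalizer_iff]
    intro h
    constructor
    · rintro ⟨n, rfl⟩
      have : Commute (σ x) (x ^ n) := Commute.zpow_right hc.symm n
      simp only
      rw [this.eq, mul_assoc, mul_inv_cancel, mul_one]
      exact ⟨n, rfl⟩
    · rintro ⟨n, hn⟩
      refine ⟨n, ?_⟩
      simp only at hn ⊢
      have : Commute (σ x) (x ^ n) := Commute.zpow_right hc.symm n
      have e : σ x * h * (σ x)⁻¹ * σ x = (x ^ n) * σ x := by rw [hn]
      rw [inv_mul_cancel_right, ← this.eq] at e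
      exact (mul_left_cancel e).symm
  have h2 : ∀ y ∈ (zpowers x ⊔ zpowers (σ x) : Subgroup W), σ y ∈ (zpowers x ⊔ zpowers (σ x) : Subgroup W) := by
    intro y hy
    have h3 : (zpowers x ⊔ zpowers (σ x) : Subgroup W).map (σ : W →* W) ≤
        (zpowers x ⊔ zpowers (σ x) : Subgroup W) := by
      rw [Subgroup.map_sup, MonoidHom.map_zpowers, MonoidHom.map_zpowers]
      apply sup_le le_sup_right
      have : ((σ : W →* W) (σ x)) = x⁻¹ := hx
      rw [this, zpowers_inv]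
      exact le_sup_left
    exact h3 ⟨y, hy, rfl⟩
  exact hR _ h2 h1 (mem_sup_left (mem_zpowers x))

lemma Fpf4.mem_R_of_fix (hf : Fpf4 σ) {p : ℕ} [Fact p.Prime] (R : Subgroup W)
    (hR : ∀ Y : Subgroup W, (∀ x ∈ Y, σ x ∈ Y) → IsPGroup p Y → Y ≤ R)
    {x : W} {k : ℕ} (hx : σ (σ x) = x) (hk : x ^ p ^ k = 1) : x ∈ R := by
  have h1 := hf.inv_of_fix hx
  apply hR (zpowers x) _ (isPGroup_zpowers hk) (mem_zpowers x)
  rintro _ ⟨n, rfl⟩
  simp only [map_zpow, h1]
  exact ⟨-n, by simp⟩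

/-- The count at a prime. -/
theorem Fpf4.card_part (hf : Fpf4 σ) (p : ℕ) [Fact p.Prime] :
    Nat.card {x : W // σ (σ x) = x⁻¹ ∧ x ^ p ^ (Nat.card W).factorization p = 1} *
      Nat.card {x : W // σ (σ x) = x ∧ x ^ p ^ (Nat.card W).factorization p = 1} =
        p ^ (Nat.card W).factorization p := by
  obtain ⟨R, hR1, hR2⟩ := hf.exists_R p
  have h1 := hf.card_decomp (R : Subgroup W) (fun x hx => hR1 _ (hR1 x hx))
  rw [Sylow.card_eq_multiplicity] at h1
  refine Eq.trans ?_ h1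
  have hc : ∀ x : W, x ∈ (R : Subgroup W) → x ^ p ^ (Nat.card W).factorization p = 1 := by
    intro x hx
    have := pow_card_eq_one' (x := (⟨x, hx⟩ : (R : Subgroup W)))
    rw [Sylow.card_eq_multiplicity] at this
    exact congrArg Subtype.val this
  congr 1
  · apply Nat.card_congr
    apply Equiv.subtypeEquivRight
    intro x
    exact ⟨fun h => ⟨hf.mem_R_of_inv _ hR2 h.1 h.2, h.1⟩, fun h => ⟨h.2, hc x h.1⟩⟩
  · apply Nat.card_congr
    apply Equiv.subtypeEquivRight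
    intro x
    exact ⟨fun h => ⟨hf.mem_R_of_fix _ hR2 h.1 h.2, h.1⟩, fun h => ⟨h.2, hc x h.1⟩⟩

/-- The product function. -/
noncomputable def Fcount (σ : MulAut W) (d : ℕ) : ℕ :=
  Nat.card {x : W // σ (σ x) = x⁻¹ ∧ x ^ d = 1} * Nat.card {x : W // σ (σ x) = x ∧ x ^ d = 1}

lemma inv_pred_pow {x : W} (hx : σ (σ x) = x⁻¹) (n : ℕ) : σ (σ (x ^ n)) = (x ^ n)⁻¹ := by
  simp only [map_pow, hx, inv_pow]

lemma fix_pred_pow {x : W} (hx : σ (σ x) = x) (n : ℕ) : σ (σ (x ^ n)) = x ^ n := by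
  simp only [map_pow, hx]

lemma Fcount_mul_le (σ : MulAut W) {d₁ d₂ : ℕ} (h : Nat.Coprime d₁ d₂) :
    Fcount σ (d₁ * d₂) ≤ Fcount σ d₁ * Fcount σ d₂ := by
  unfold Fcount
  have h1 := card_part_le (W := W) (fun x => σ (σ x) = x⁻¹) (fun x hx n => inv_pred_pow hx n) h
  have h2 := card_part_le (W := W) (fun x => σ (σ x) = x) (fun x hx n => fix_pred_pow hx n) h
  calc _ ≤ _ := Nat.mul_le_mul h1 h2
    _ = _ := by ring

lemma factorization_of_coprime {N p n : ℕ} (hp : p.Prime) (hn : 0 < n) (h1 : p ^ n ∣ N) (hN : N ≠ 0)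
    (h2 : Nat.Coprime (p ^ n) (N / p ^ n)) : N.factorization p = n := by
  obtain ⟨m, rfl⟩ := h1
  have hm : m ≠ 0 := by rintro rfl; simp at hN
  have hp0 : p ^ n ≠ 0 := pow_ne_zero _ hp.ne_zero
  rw [Nat.mul_div_cancel_left _ (Nat.pos_of_ne_zero hp0)] at h2
  rw [Nat.factorization_mul hp0 hm, Finsupp.add_apply, hp.factorization_pow]
  have h3 : ¬ p ∣ m := by
    intro h
    have h4 : p ∣ Nat.gcd (p ^ n) m := Nat.dvd_gcd (dvd_pow_self p hn.ne') h
    rw [h2] at h4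
    exact hp.one_lt.ne' (Nat.dvd_one.1 h4)
  rw [Nat.factorization_eq_zero_of_not_dvd h3]
  simp

/-- The count at a Hall divisor is at most the divisor. -/
theorem Fpf4.Fcount_le (hf : Fpf4 σ) (d : ℕ) :
    d ∣ Nat.card W → Nat.Coprime d (Nat.card W / d) → Fcount σ d ≤ d := by
  have hN : Nat.card W ≠ 0 := Nat.card_pos.ne'
  induction d using Nat.recOnPosPrimePosCoprime with
  | prime_pow p n hp hn =>
    intro h1 h2
    haveI : Fact p.Prime := ⟨hp⟩
    have h3 := factorization_of_coprime hp hn h1 hN h2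
    have h4 := hf.card_part p
    rw [h3] at h4
    exact h4.le
  | zero =>
    intro h1
    exact absurd (Nat.eq_zero_of_zero_dvd h1) hN
  | one =>
    intro _ _
    unfold Fcount
    have e1 : Nat.card {x : W // σ (σ x) = x⁻¹ ∧ x ^ 1 = 1} = 1 := by
      apply Nat.card_eq_one_iff_unique.2
      refine ⟨⟨?_⟩, ⟨⟨1, by simp⟩⟩⟩
      rintro ⟨x, -, hx⟩ ⟨y, -, hy⟩
      apply Subtype.ext
      simp only [pow_one] at hx hy
      exact hx.trans hy.symm
    have e2 : Nat.card {x : W // σ (σ x) = x ∧ x ^ 1 = 1} = 1 := by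
      apply Nat.card_eq_one_iff_unique.2
      refine ⟨⟨?_⟩, ⟨⟨1, by simp⟩⟩⟩
      rintro ⟨x, -, hx⟩ ⟨y, -, hy⟩
      apply Subtype.ext
      simp only [pow_one] at hx hy
      exact hx.trans hy.symm
    rw [e1, e2]
  | coprime a b ha hb hab iha ihb =>
    intro h1 h2
    have hb0 : 0 < b := by omega
    have ha0 : 0 < a := by omega
    obtain ⟨m, hm⟩ := h1
    have e : Nat.card W / (a * b) = m := by
      rw [hm]; exact Nat.mul_div_cancel_left _ (Nat.mul_pos ha0 hb0)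
    rw [e] at h2
    have h3 : Nat.Coprime a (b * m) := by
      apply Nat.Coprime.mul_right hab
      exact Nat.Coprime.coprime_mul_right h2
    have h4 : Nat.Coprime b (a * m) := by
      apply Nat.Coprime.mul_right hab.symm
      exact Nat.Coprime.coprime_mul_left h2
    have e1 : Nat.card W / a = b * m := by
      rw [hm, mul_assoc]; exact Nat.mul_div_cancel_left _ ha0
    have e2 : Nat.card W / b = a * m := by
      rw [hm, mul_comm a b, mul_assoc]; exact Nat.mul_div_cancel_left _ hb0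
    have h5 := iha ⟨b * m, by rw [hm, mul_assoc]⟩ (by rwa [e1])
    have h6 := ihb ⟨a * m, by rw [hm, mul_comm a b, mul_assoc]⟩ (by rwa [e2])
    calc Fcount σ (a * b) ≤ Fcount σ a * Fcount σ b := Fcount_mul_le σ hab
      _ ≤ a * b := Nat.mul_le_mul h5 h6

/-- The full count. -/
lemma Fpf4.Fcount_card (hf : Fpf4 σ) : Fcount σ (Nat.card W) = Nat.card W := by
  unfold Fcount
  have h1 := hf.card_decomp ⊤ (fun _ _ => mem_top _)
  have e0 : Nat.card (⊤ : Subgroup W) = Nat.card W := Nat.card_congr topEquiv.toEquiv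
  rw [e0] at h1
  refine Eq.trans ?_ h1
  have hp : ∀ x : W, x ^ Nat.card W = 1 := fun x => pow_card_eq_one'
  congr 1
  · apply Nat.card_congr
    apply Equiv.subtypeEquivRight
    intro x
    simp [hp]
  · apply Nat.card_congr
    apply Equiv.subtypeEquivRight
    intro x
    simp [hp]

/-- Elements of coprime complementary parts of the inverted set commute. -/
theorem Fpf4.comm_parts (hf : Fpf4 σ) {d₁ d₂ : ℕ} (h : Nat.Coprime d₁ d₂) (hd : d₁ * d₂ = Nat.card W)
    {u v : W} (hu : σ (σ u) = u⁻¹) (hu1 : u ^ d₁ = 1) (hv : σ (σ v) = v⁻¹) (hv1 : v ^ d₂ = 1) : u * v = v * u := by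
  have hd1 : 0 < d₁ := Nat.pos_of_ne_zero (by rintro rfl; simp at hd; exact Nat.card_pos.ne hd)
  have hd2 : 0 < d₂ := Nat.pos_of_ne_zero (by rintro rfl; simp at hd; exact Nat.card_pos.ne hd)
  have e1 : Nat.card W / d₁ = d₂ := by rw [← hd]; exact Nat.mul_div_cancel_left _ hd1
  have e2 : Nat.card W / d₂ = d₁ := by rw [← hd]; exact Nat.mul_div_cancel _ hd2
  have h1 : Fcount σ d₁ ≤ d₁ := hf.Fcount_le d₁ ⟨d₂, hd.symm⟩ (by rwa [e1])
  have h2 : Fcount σ d₂ ≤ d₂ := hf.Fcount_le d₂ ⟨d₁, by rw [← hd, mul_comm]⟩ (by rw [e2]; exact h.symm)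
  have h3 := hf.Fcount_card
  rw [← hd] at h3
  unfold Fcount at h1 h2 h3
  set A := Nat.card {x : W // σ (σ x) = x⁻¹ ∧ x ^ (d₁ * d₂) = 1}
  set B := Nat.card {x : W // σ (σ x) = x ∧ x ^ (d₁ * d₂) = 1}
  set A₁ := Nat.card {x : W // σ (σ x) = x⁻¹ ∧ x ^ d₁ = 1}
  set A₂ := Nat.card {x : W // σ (σ x) = x⁻¹ ∧ x ^ d₂ = 1}
  set B₁ := Nat.card {x : W // σ (σ x) = x ∧ x ^ d₁ = 1}
  set B₂ := Nat.card {x : W // σ (σ x) = x ∧ x ^ d₂ = 1}
  have h4 : A ≤ A₁ * A₂ :=
    card_part_le (W := W) (fun x => σ (σ x) = x⁻¹) (fun x hx n => inv_pred_pow hx n) h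
  have h5 : B ≤ B₁ * B₂ :=
    card_part_le (W := W) (fun x => σ (σ x) = x) (fun x hx n => fix_pred_pow hx n) h
  have hApos : 0 < A := Nat.card_pos_iff.2 ⟨⟨⟨1, by simp⟩⟩, by
    apply Subtype.finite⟩
  have hBpos : 0 < B := Nat.card_pos_iff.2 ⟨⟨⟨1, by simp⟩⟩, by
    apply Subtype.finite⟩
  have h6 : A₁ * A₂ * (B₁ * B₂) ≤ A * B := by
    calc A₁ * A₂ * (B₁ * B₂) = (A₁ * B₁) * (A₂ * B₂) := by ring
      _ ≤ d₁ * d₂ := Nat.mul_le_mul h1 h2
      _ = A * B := h3.symm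
  have h7 : A₁ * A₂ = A := by
    by_contra hne
    have h8 : A < A₁ * A₂ := lt_of_le_of_ne h4 (Ne.symm hne)
    have h9 : A * B < A₁ * A₂ * B := Nat.mul_lt_mul_of_pos_right h8 hBpos
    have h10 : A₁ * A₂ * B ≤ A₁ * A₂ * (B₁ * B₂) := Nat.mul_le_mul_left _ h5
    omega
  exact comm_of_card_part_eq (W := W) (fun x => σ (σ x) = x⁻¹) (fun x hx n => inv_pred_pow hx n) h h7.symm
    hu hu1 hv hv1

/-- Decomposition of each element. -/
lemma Fpf4.exists_decomp (hf : Fpf4 σ) (x : W) : ∃ s c : W, σ (σ s) = s⁻¹ ∧ σ (σ c) = c ∧ x = s * c := by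
  set t := x * (σ (σ x))⁻¹ with ht
  set s := t ^ ((Nat.card W + 1) / 2) with hs
  have hs2 : s ^ 2 = t := exists_sqrt hf.odd t
  have hτt : σ (σ t) = t⁻¹ := by
    simp only [ht, map_mul, map_inv]
    have e : σ (σ (σ (σ x))) = x := hf.four x
    rw [e]; group
  have hτs : σ (σ s) = s⁻¹ := by
    simp only [hs, map_pow, hτt, inv_pow]
  refine ⟨s, s⁻¹ * x, hτs, ?_, by group⟩
  have e : σ (σ x) = t⁻¹ * x := by rw [ht]; group
  rw [map_mul, map_mul, map_inv, map_inv, hτs, e, ← hs2]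
  simp only [pow_two]
  group

end Main

/-- **Gorenstein–Herstein** A finite group with a fixed-point-free automorphism `σ`, `σ ^ 4 = 1`, is solvable. -/
theorem solvable_of_fpf4 {W : Type u} [Group W] [Finite W] (σ : MulAut W) (hf : Fpf4 σ) :
    Group.IsSolvable W := by
  induction hn : Nat.card W using Nat.strong_induction_on generalizing W with
  | _ n ih =>
  subst hn
  classical
  by_cases hI : ∃ e : W, e ≠ 1 ∧ σ (σ e) = e⁻¹
  · obtain ⟨e, he, heI⟩ := hI
    have ho : orderOf e ≠ 1 := fun h => he (orderOf_eq_one_iff.1 h)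
    obtain ⟨p, hp, hpd⟩ := Nat.exists_prime_and_dvd ho
    haveI : Fact p.Prime := ⟨hp⟩
    have ho0 : orderOf e ≠ 0 := (isOfFinOrder_of_finite e).orderOf_pos.ne'
    have he1o : orderOf (e ^ (orderOf e / p)) = p := orderOf_pow_orderOf_div ho0 hpd
    set e₁ := e ^ (orderOf e / p) with he₁
    have hN : Nat.card W ≠ 0 := Nat.card_pos.ne'
    have hpN : p ∣ Nat.card W := he1o ▸ orderOf_dvd_natCard e₁
    set v := (Nat.card W).factorization p with hv
    have hv1 : 1 ≤ v := (hp.dvd_iff_one_le_factorization hN).1 hpN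
    set d₁ := p ^ v with hd₁
    set d₂ := Nat.card W / p ^ v with hd₂
    have hdd : d₁ * d₂ = Nat.card W := Nat.ordProj_mul_ordCompl_eq_self _ p
    have hcop : Nat.Coprime d₁ d₂ := (Nat.coprime_ordCompl hp hN).pow_left v
    let S : Set W := {x | σ (σ x) = x⁻¹ ∧ x ^ d₁ = 1}
    let U := closure S
    have he₁S : e₁ ∈ S := by
      refine ⟨inv_pred_pow heI _, ?_⟩
      have h1 : orderOf e₁ ∣ d₁ := by
        rw [he1o]; exact dvd_pow_self p (by omega)
      exact orderOf_dvd_iff_pow_eq_one.1 h1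
    have hUne : U ≠ ⊥ := by
      intro h
      have h1 : e₁ ∈ U := subset_closure he₁S
      rw [h, mem_bot] at h1
      have := he1o
      rw [h1, orderOf_one] at this
      exact hp.one_lt.ne this
    obtain ⟨a, b, hab⟩ := exists_crt (W := W) hcop
    have hconj : ∀ g : W, ∀ x ∈ S, g * x * g⁻¹ ∈ U := by
      intro g x hx
      obtain ⟨s, c, hs, hc, rfl⟩ := hf.exists_decomp g
      have hpow : ∀ y : W, y ^ (d₁ * d₂) = 1 := fun y => by rw [hdd]; exact pow_card_eq_one'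
      obtain ⟨h1, h2, h3⟩ := hab s (hpow s)
      set x' := c * x * c⁻¹ with hx'
      have hx'S : x' ∈ S := by
        refine ⟨?_, ?_⟩
        · simp only [hx', map_mul, map_inv, hc, hx.1]
          group
        · rw [hx', conj_pow, hx.2]
          group
      have hcomm : s ^ b * x' = x' * s ^ b :=
        (hf.comm_parts hcop hdd hx'S.1 hx'S.2 (inv_pred_pow hs b) h2).symm
      have e1 : s * c * x * (s * c)⁻¹ = s ^ a * x' * (s ^ a)⁻¹ := by
        have e2 : s * c * x * (s * c)⁻¹ = s * x' * s⁻¹ := by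
          rw [hx']; group
        rw [e2]
        nth_rw 1 [← h3]
        have e3 : s⁻¹ = (s ^ b)⁻¹ * (s ^ a)⁻¹ := by
          rw [← mul_inv_rev, h3]
        rw [e3, mul_assoc (s ^ a), hcomm]
        group
      rw [e1]
      have h4 : s ^ a ∈ U := subset_closure ⟨inv_pred_pow hs a, h1⟩
      exact U.mul_mem (U.mul_mem h4 (subset_closure hx'S)) (U.inv_mem h4)
    haveI hUn : U.Normal := by
      refine ⟨fun n hn g => ?_⟩
      induction hn using closure_induction with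
      | mem x hx => exact hconj g x hx
      | one => simp
      | mul x y _ _ hx hy =>
        have : g * (x * y) * g⁻¹ = (g * x * g⁻¹) * (g * y * g⁻¹) := by group
        rw [this]
        exact U.mul_mem hx hy
      | inv x _ hx =>
        have : g * x⁻¹ * g⁻¹ = (g * x * g⁻¹)⁻¹ := by group
        rw [this]
        exact U.inv_mem hx
    have hσS : ∀ x ∈ S, σ x ∈ S := by
      intro x hx
      refine ⟨?_, ?_⟩
      · have := congrArg σ hx.1
        simpa only [map_inv] using this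
      · rw [← map_pow, hx.2, map_one]
    have hσU : ∀ x ∈ U, σ x ∈ U := by
      intro x hx
      have h1 : U.map (σ : W →* W) ≤ U := by
        show (closure S).map (σ : W →* W) ≤ closure S
        rw [MonoidHom.map_closure]
        apply Subgroup.closure_mono
        rintro _ ⟨x, hx, rfl⟩
        exact hσS x hx
      exact h1 ⟨x, hx, rfl⟩
    have hUmap : U.map (σ : W →* W) = U := by
      apply le_antisymm
      · rintro _ ⟨x, hx, rfl⟩
        exact hσU x hx
      · intro x hx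
        refine ⟨σ (σ (σ x)), hσU _ (hσU _ (hσU _ hx)), hf.four x⟩
    obtain ⟨R, -, hR2⟩ := hf.exists_R p
    have hUp : IsPGroup p U := by
      apply IsPGroup.to_le R.isPGroup'
      rw [closure_le]
      intro x hx
      exact hf.mem_R_of_inv _ hR2 hx.1 hx.2
    -- the quotient
    let σ' : MulAut (W ⧸ U) := QuotientGroup.congr U U σ hUmap
    have hf' : Fpf4 σ' := by
      refine ⟨?_, ?_⟩
      · intro x
        induction x using QuotientGroup.induction_on with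
        | H x => exact congrArg (fun z : W => (z : W ⧸ U)) (hf.four x)
      · intro x
        induction x using QuotientGroup.induction_on with
        | H x =>
          intro h
          have h1 : ((σ x : W) : W ⧸ U) = (x : W ⧸ U) := h
          have h2 := QuotientGroup.eq.1 h1.symm
          have h3 := hf.mem_of_inv_mul_mem U hσU h2
          exact (QuotientGroup.eq_one_iff x).2 h3
    have hlt : Nat.card (W ⧸ U) < Nat.card W := by
      have h1 := Subgroup.card_mul_index U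
      rw [Subgroup.index_eq_card] at h1
      have h2 : 1 < Nat.card U := (Subgroup.one_lt_card_iff_ne_bot U).2 hUne
      have h3 : 0 < Nat.card (W ⧸ U) := Nat.card_pos
      nlinarith
    haveI h5 : Group.IsSolvable (W ⧸ U) := ih _ hlt σ' hf' rfl
    haveI : Group.IsNilpotent U := hUp.isNilpotent
    haveI h6 : Group.IsSolvable U := inferInstance
    refine Group.isSolvable_of_ker_le_range U.subtype (QuotientGroup.mk' U) ?_
    rw [QuotientGroup.ker_mk', range_subtype]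
  · push Not at hI
    have hfix : ∀ x : W, σ (σ x) = x := by
      intro x
      obtain ⟨s, c, hs, hc, rfl⟩ := hf.exists_decomp x
      by_cases hs1 : s = 1
      · subst hs1; simpa using hc
      · exact absurd hs (hI s hs1)
    have hinv := fun x => hf.inv_of_fix (hfix x)
    apply Group.isSolvable_of_comm
    intro x y
    have h1 := hinv (x * y)
    rw [map_mul, hinv x, hinv y, mul_inv_rev] at h1
    have h2 : (x⁻¹ * y⁻¹)⁻¹ = (y⁻¹ * x⁻¹)⁻¹ := by rw [h1]
    simpa using h2.symm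

end Cfsg.Agent.Lib.GH.Basic
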